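import Cfsg.Agent.H133.USixMult
import Cfsg.Prelude.Def_CaseTheorems
import Cfsg.Agent.Lib.FieldFour

/-!
# The three double covers (and the three covers with centre of order 6) of `PSU₆(2)` are isomorphic groups (S4907, DM27)
-/

set_option autoImplicit false
set_option linter.unusedVariables false
set_option linter.style.haveILetI false

namespace Cfsg.Agent.H277.DM

open Subgroup Cfsg Cfsg.Agent.H51.Mult Cfsg.Agent.H68.Bounds Cfsg.Agent.H133.FibPce Cfsg.Agent.KFacts.MulDef
  Cfsg.Agent.KFacts.MulTwo Cfsg.Agent.H133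
open Cfsg.Agent.ClassicalGeometry.UnitAutBasic (pr pr_surjective)

universe u v

/-- a perfect central extension with kernel of order 2 is a perfect double cover -/
theorem dbl_of_pce {L : Type u} {X : Type v} [Group L] [Group X] {π : L →* X} (h : PCE π) (h2 : Nat.card π.ker = 2) :
    ∃ c, Dbl π c := by
  obtain ⟨c, hc, hc'⟩ : ∃ c : π.ker, c ≠ 1 ∧ ∀ x : π.ker, x = 1 ∨ x = c := by
    have : Fact (Nat.Prime 2) := ⟨Nat.prime_two⟩
    obtain ⟨a, b, hab, huniv⟩ := Nat.card_eq_two_iff.1 h2
    by_cases ha : a = 1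
    · refine ⟨b, fun h => hab (by rw [ha, h]), fun x => ?_⟩
      have : x ∈ ({a, b} : Set π.ker) := by rw [huniv]; trivial
      rcases this with h | h
      · left; rw [h, ha]
      · right; exact h
    · refine ⟨a, ha, fun x => ?_⟩
      have h1 : (1 : π.ker) ∈ ({a, b} : Set π.ker) := by rw [huniv]; trivial
      have hb : b = 1 := by
        rcases h1 with h | h
        · exact absurd h.symm ha
        · exact h.symm
      have : x ∈ ({a, b} : Set π.ker) := by rw [huniv]; trivial
      rcases this with h | h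
      · right; exact h
      · left; rw [h]; exact hb
  refine ⟨c, ⟨fun hh => hc (Subtype.ext hh), ?_, fun x => h.comm c.2 x, h.perf⟩, h.surj, fun x => ⟨fun hx => ?_, ?_⟩⟩
  · rcases hc' (c * c) with h1 | h1
    · exact congrArg Subtype.val h1
    · exact absurd (mul_eq_left.1 h1) hc
  · rcases hc' ⟨x, hx⟩ with h1 | h1
    · exact Or.inl (congrArg Subtype.val h1)
    · exact Or.inr (congrArg Subtype.val h1)
  · rintro (rfl | rfl)
    · exact map_one π
    · exact c.2

section

variable {F : Type} [Field F] [Fintype F] (hF : Fintype.card F = 2 ^ 2)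

include hF

/-- a perfect central extension with kernel of order 12 is universal -/
theorem exists_lift {U : Type v} [Group U] [Finite U] {q : U →* PSU 6 F 2} (hq : PCE q) (h12 : Nat.card q.ker = 12)
    {G : Type u} [Group G] [Finite G] {p : G →* PSU 6 F 2} (hp : PCE p) : ∃ f : U →* G, PCE f ∧ p.comp f = q := by
  obtain ⟨D, _, f', g, hf', hg, hfg, hD, hDf⟩ := exists_common hq hp
  haveI : Finite D := hDf inferInstance inferInstance
  obtain ⟨h8, h9, h5⟩ := USixMult.ker_bounds hF hD
  rw [card_ker_comp hf'.surj, h12] at h8 h9 h5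
  have h1 : Nat.card f'.ker = 1 := by
    by_contra hne
    obtain ⟨r, hr, hrd⟩ := Nat.exists_prime_and_dvd hne
    obtain ⟨k, hk⟩ := hrd
    rw [hk] at h8 h9 h5
    rcases (show r = 2 ∨ r = 3 ∨ 5 ≤ r by
      have := hr.two_le
      by_contra hcon
      push Not at hcon
      obtain ⟨k1, k2, k3⟩ := hcon
      have : r = 4 := by omega
      rw [this] at hr
      exact absurd hr (by norm_num)) with h | h | h
    · rw [h] at h8; exact h8 ⟨3 * k, by ring⟩
    · rw [h] at h9; exact h9 ⟨4 * k, by ring⟩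
    · exact h5 r hr h ⟨12 * k, by ring⟩
  have hinj : Function.Injective f' := by
    rw [← MonoidHom.ker_eq_bot_iff]
    exact Subgroup.card_eq_one.1 h1
  let e : D ≃* U := MulEquiv.ofBijective f' ⟨hinj, hf'.surj⟩
  refine ⟨g.comp e.symm.toMonoidHom, hg.comp_equiv e.symm, ?_⟩
  ext x
  have h2 : p (g (e.symm x)) = q (f' (e.symm x)) := (DFunLike.congr_fun hfg (e.symm x)).symm
  change p (g (e.symm x)) = q x
  rw [h2]
  congr 1
  exact e.apply_symm_apply x

/-- the diagonal automorphism lifts -/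
theorem exists_auto {U : Type v} [Group U] [Finite U] {q : U →* PSU 6 F 2} (hq : PCE q) (h12 : Nat.card q.ker = 12)
    (δ : MulAut (PSU 6 F 2)) : ∃ α : U ≃* U, ∀ x, δ (q (α x)) = q x := by
  obtain ⟨f, hf, hqf⟩ := exists_lift hF hq h12 (hq.congr δ)
  have h1 : Nat.card f.ker = 1 := by
    have h2 := card_ker_comp (ρ := δ.toMonoidHom.comp q) hf.surj
    rw [hqf, h12, ker_congr, h12] at h2
    omega
  have hinj : Function.Injective f := by
    rw [← MonoidHom.ker_eq_bot_iff]
    exact Subgroup.card_eq_one.1 h1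
  exact ⟨MulEquiv.ofBijective f ⟨hinj, hf.surj⟩, fun x => DFunLike.congr_fun hqf x⟩

/-- the lift of the diagonal automorphism fixes no involution of the kernel -/
theorem no_fix {U : Type v} [Group U] [Finite U] {q : U →* PSU 6 F 2} (hq : PCE q) (h12 : Nat.card q.ker = 12)
    {ω : F} (hω : ω ^ 2 + ω + 1 = 0) (h0 : ω ≠ 0) (h3 : ω ^ 3 = 1) {α : U ≃* U}
    (hα : ∀ x, USixTwo.dlt ω h0 h3 (q (α x)) = q x) {a : U} (ha : q a = 1) (ha2 : a * a = 1) (ha1 : a ≠ 1)
    (hT : Nat.card {z : U // q z = 1 ∧ (z ^ 3 = 1 ∨ z ^ 3 = a)} = 6) : α a ≠ a := by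
  intro hfix
  have hcomm : ∀ {x : U}, q x = 1 → ∀ y, x * y = y * x := fun hx y => hq.comm hx y
  let A : Subgroup U :=
    { carrier := {z | q z = 1 ∧ (z ^ 3 = 1 ∨ z ^ 3 = a)}
      mul_mem' := by
        rintro x y ⟨hx, hx3⟩ ⟨hy, hy3⟩
        refine ⟨by rw [map_mul, hx, hy, one_mul], ?_⟩
        have h4 : (x * y) ^ 3 = x ^ 3 * y ^ 3 := (show Commute x y from hcomm hx y).mul_pow 3
        rw [h4]
        rcases hx3 with h | h <;> rcases hy3 with h' | h' <;> rw [h, h'] <;> simp [ha2]
      one_mem' := ⟨map_one q, Or.inl (one_pow 3)⟩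
      inv_mem' := by
        rintro x ⟨hx, hx3⟩
        refine ⟨by rw [map_inv, hx, inv_one], ?_⟩
        rw [inv_pow]
        rcases hx3 with h | h
        · left; rw [h, inv_one]
        · right; rw [h]; exact inv_eq_of_mul_eq_one_right ha2 }
  have hAk : A ≤ q.ker := fun z hz => hz.1
  have hA6 : Nat.card A = 6 := hT
  obtain ⟨L, _, r, ρ, hr, hrk, hρr, hρ⟩ := hq.quot hAk
  haveI : Finite L := Finite.of_surjective r hr
  have hρ2 : Nat.card ρ.ker = 2 := by
    have h1 : ρ.comp r = q := by ext x; exact hρr x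
    have h2 := card_ker_comp (ρ := ρ) hr
    rw [h1, h12, hrk, hA6] at h2
    omega
  obtain ⟨c, hd⟩ := dbl_of_pce hρ hρ2
  apply USixTwo.no_iso hF hd hω h0 h3
  -- the induced automorphism
  have hqα : ∀ z, q z = 1 → q (α z) = 1 := by
    intro z hz
    have h4 := hα z
    rw [hz] at h4
    exact (USixTwo.dlt ω h0 h3).injective (h4.trans (map_one _).symm)
  have hαA : ∀ z, z ∈ A → α z ∈ A := by
    rintro z ⟨hz, hz3⟩
    refine ⟨hqα z hz, ?_⟩
    rw [← map_pow]
    rcases hz3 with h | h
    · left; rw [h, map_one]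
    · right; rw [h, hfix]
  have hker : r.ker ≤ (r.comp α.toMonoidHom).ker := by
    intro z hz
    rw [hrk] at hz
    rw [MonoidHom.mem_ker]
    change r (α z) = 1
    rw [← MonoidHom.mem_ker, hrk]
    exact hαA z hz
  let β : L →* L := (r.liftOfSurjective hr) ⟨r.comp α.toMonoidHom, hker⟩
  have hβ : ∀ z, β (r z) = r (α z) := fun z => by
    have := MonoidHom.liftOfRightInverse_comp_apply r (Function.surjInv hr) (Function.rightInverse_surjInv hr)
      ⟨r.comp α.toMonoidHom, hker⟩ z
    exact this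
  have hβs : Function.Surjective β := by
    intro y
    obtain ⟨z, rfl⟩ := hr y
    obtain ⟨w, rfl⟩ := α.surjective z
    exact ⟨r w, hβ w⟩
  refine ⟨MulEquiv.ofBijective β ⟨(Finite.injective_iff_surjective).2 hβs, hβs⟩, fun y => ?_⟩
  obtain ⟨z, rfl⟩ := hr y
  change USixTwo.dlt ω h0 h3 (ρ (β (r z))) = ρ (r z)
  rw [hβ, hρr, hρr, hα]

end

/-! ### the kernel `Z₃ × Z₂ × Z₂` -/

/-- the kernel as an abstract group -/
abbrev M12 := Multiplicative (ZMod 3 × ZMod 2 × ZMod 2)

/-- transport of a subset of the kernel -/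
theorem card_sub {U : Type u} {X : Type v} [Group U] [Group X] {q : U →* X} (e : q.ker ≃* M12) (P : U → Prop)
    (P' : M12 → Prop) (h : ∀ z : q.ker, P z ↔ P' (e z)) :
    Nat.card {z : U // q z = 1 ∧ P z} = Nat.card {z : M12 // P' z} := by
  have h1 : Nat.card {z : U // q z = 1 ∧ P z} = Nat.card {z : q.ker // P z} :=
    Nat.card_congr ⟨fun z => ⟨⟨z.1, z.2.1⟩, z.2.2⟩, fun z => ⟨z.1.1, z.1.2, z.2⟩, fun _ => rfl, fun _ => rfl⟩
  rw [h1]
  exact Nat.card_congr (e.toEquiv.subtypeEquiv h)

theorem card_pow {U : Type u} {X : Type v} [Group U] [Group X] {q : U →* X} (e : q.ker ≃* M12) (m : ℕ) :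
    Nat.card {z : U // q z = 1 ∧ z ^ m = 1} = Nat.card {z : M12 // z ^ m = 1} := by
  refine card_sub e _ _ (fun z => ?_)
  rw [← map_pow, map_eq_one_iff e e.injective]
  constructor
  · intro h; exact Subtype.ext h
  · intro h; exact congrArg Subtype.val h

theorem card_pow_a {U : Type u} {X : Type v} [Group U] [Group X] {q : U →* X} (e : q.ker ≃* M12) (m : ℕ) (a : q.ker) :
    Nat.card {z : U // q z = 1 ∧ (z ^ m = 1 ∨ z ^ m = a)} = Nat.card {z : M12 // z ^ m = 1 ∨ z ^ m = e a} := by
  refine card_sub e _ _ (fun z => ?_)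
  rw [← map_pow, map_eq_one_iff e e.injective, e.injective.eq_iff]
  constructor
  · rintro (h | h)
    · exact Or.inl (Subtype.ext h)
    · exact Or.inr (Subtype.ext h)
  · rintro (h | h)
    · exact Or.inl (congrArg Subtype.val h)
    · exact Or.inr (congrArg Subtype.val h)

theorem M12_one : ∀ m ∈ ([1, 3, 4, 12] : List ℕ), Nat.card {z : M12 // z ^ m = 1} = m := by
  simp only [Nat.card_eq_fintype_card]
  decide

theorem M12_two : Nat.card {z : M12 // z ^ 2 = 1} = 4 := by
  simp only [Nat.card_eq_fintype_card]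
  decide

theorem M12_a : ∀ a : M12, a * a = 1 → a ≠ 1 → Nat.card {z : M12 // z ^ 3 = 1 ∨ z ^ 3 = a} = 6 := by
  simp only [Nat.card_eq_fintype_card]
  decide

theorem M12_b : ∀ a : M12, a * a = 1 → a ≠ 1 → Nat.card {z : M12 // z ^ 1 = 1 ∨ z ^ 1 = a} = 2 := by
  simp only [Nat.card_eq_fintype_card]
  decide

/-- equal kernels -/
theorem iso_of_ker {U : Type u} {G : Type v} {H : Type*} [Group U] [Group G] [Group H] {f : U →* G} {g : U →* H}
    (hf : Function.Surjective f) (hg : Function.Surjective g) (h : f.ker = g.ker) : Nonempty (G ≃* H) :=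
  ⟨((QuotientGroup.quotientKerEquivOfSurjective f hf).symm.trans (QuotientGroup.quotientMulEquivOfEq h)).trans
    (QuotientGroup.quotientKerEquivOfSurjective g hg)⟩

/-- a subgroup contained in a set of the same size -/
theorem mem_iff_of_card {U : Type u} [Group U] [Finite U] {A : Subgroup U} {P : U → Prop} (h : ∀ z ∈ A, P z)
    (hc : Nat.card A = Nat.card {z : U // P z}) (z : U) : z ∈ A ↔ P z := by
  have h1 : (A : Set U) = {z | P z} := by
    have h2 : (A : Set U).ncard = Nat.card A := rfl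
    have h3 : ({z | P z} : Set U).ncard = Nat.card {z : U // P z} := rfl
    have h4 : (A : Set U) ⊆ {z | P z} := fun z hz => h z hz
    exact Set.eq_of_subset_of_ncard_le h4 (by rw [h2, h3, hc]) (Set.toFinite _)
  constructor
  · exact h z
  · intro hz
    have : z ∈ (A : Set U) := by rw [h1]; exact hz
    exact this

section

variable {F : Type} [Field F] [Fintype F] (hF : Fintype.card F = 2 ^ 2)

include hF in
/-- existence of the universal cover -/
theorem exists_univ : ∃ (U : Type) (_ : Group U) (_ : Finite U) (q : U →* PSU 6 F 2), PCE q ∧ Nonempty (q.ker ≃* M12) := by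
  obtain ⟨G, _, _, -, D, -, hcard, h⟩ := Cfsg.Agent.S0471.result
  have hne : Nonempty D := by
    rw [← not_isEmpty_iff]
    intro hempty
    have := Nat.card_of_isEmpty (α := D)
    omega
  obtain ⟨d, hd⟩ := hne
  obtain ⟨K, _, _, hK, hcov⟩ := h d hd
  have hK' : Fintype.card K = 2 ^ 2 := by rw [hK]; norm_num
  have hperf : commutator (Cfsg.PSU 6 K 2) = ⊤ := (Cfsg.Agent.H133.USixMult.pce_pr hK').1.perf_base
  obtain ⟨π, c, hdbl⟩ := Cfsg.Agent.H133.USixMult.dbl_of_nonsplit hcov hperf
  obtain ⟨U, _, _, q, hq, ⟨e⟩⟩ := USixMult.exists_cover hK' hdbl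
  let ε := Cfsg.Agent.LieClassical.FieldTransfer.psuCongr 6 2 (FiniteField.ringEquivOfCardEq (hK'.trans hF.symm))
  refine ⟨U, inferInstance, inferInstance, ε.toMonoidHom.comp q, hq.congr ε, ⟨?_⟩⟩
  exact (MulEquiv.subgroupCongr (ker_congr q ε)).trans e

include hF in
/-- the covers of `PSU₆(2)` with kernels of the same order are isomorphic groups -/
theorem iso_of_card {G : Type u} {H : Type v} [Group G] [Finite G] [Group H] [Finite H] {p : G →* PSU 6 F 2}
    {r : H →* PSU 6 F 2} (hp : PCE p) (hr : PCE r) (hc : Nat.card p.ker = Nat.card r.ker) : Nonempty (G ≃* H) := by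
  obtain ⟨U, _, _, q, hq, ⟨e⟩⟩ := exists_univ hF
  have h12 : Nat.card q.ker = 12 := by
    rw [Nat.card_congr e.toEquiv, Nat.card_eq_fintype_card]; rfl
  obtain ⟨f, hf, hpf⟩ := exists_lift hF hq h12 hp
  obtain ⟨g, hg, hrg⟩ := exists_lift hF hq h12 hr
  have cf : Nat.card p.ker * Nat.card f.ker = 12 := by
    rw [← card_ker_comp hf.surj, hpf, h12]
  have cg : Nat.card r.ker * Nat.card g.ker = 12 := by
    rw [← card_ker_comp hg.surj, hrg, h12]
  have hpos : 0 < Nat.card r.ker := Nat.card_pos
  have cfg : Nat.card f.ker = Nat.card g.ker := by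
    rw [hc, ← cg] at cf
    exact Nat.eq_of_mul_eq_mul_left hpos cf
  have fk : ∀ z ∈ f.ker, q z = 1 := by
    intro z hz
    rw [← hpf]
    change p (f z) = 1
    rw [MonoidHom.mem_ker.1 hz, map_one]
  have gk : ∀ z ∈ g.ker, q z = 1 := by
    intro z hz
    rw [← hrg]
    change r (g z) = 1
    rw [MonoidHom.mem_ker.1 hz, map_one]
  have hdiv : Nat.card f.ker ∣ 12 := ⟨_, by rw [← cf, mul_comm]⟩
  have hle : Nat.card f.ker ≤ 12 := Nat.le_of_dvd (by norm_num) hdiv
  by_cases hm : Nat.card f.ker ∈ ([1, 3, 4, 12] : List ℕ)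
  · apply iso_of_ker hf.surj hg.surj
    have hlag : ∀ (A : Subgroup U) (z : U), z ∈ A → z ^ Nat.card A = 1 := fun A z hz => by
      have := pow_card_eq_one' (x := (⟨z, hz⟩ : A))
      exact congrArg Subtype.val this
    ext z
    rw [mem_iff_of_card (A := f.ker) (P := fun z => q z = 1 ∧ z ^ Nat.card f.ker = 1)
      (fun z hz => ⟨fk z hz, hlag _ z hz⟩) (by rw [card_pow e, M12_one _ hm]) z,
      mem_iff_of_card (A := g.ker) (P := fun z => q z = 1 ∧ z ^ Nat.card f.ker = 1)
      (fun z hz => ⟨gk z hz, by rw [cfg]; exact hlag _ z hz⟩) (by rw [card_pow e, M12_one _ hm, cfg]) z]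
  · have h26 : Nat.card f.ker = 2 ∨ Nat.card f.ker = 6 := by
      generalize Nat.card f.ker = m at hm hdiv hle
      interval_cases m <;> revert hdiv hm <;> decide
    -- the exponent `k`
    obtain ⟨k, hk, hk2, hk'⟩ : ∃ k, Nat.card f.ker = 2 * k ∧ Odd k ∧ (k = 1 ∨ k = 3) := by
      rcases h26 with h | h
      · exact ⟨1, by omega, by decide, Or.inl rfl⟩
      · exact ⟨3, by omega, by decide, Or.inr rfl⟩
    have hcomm : ∀ {x : U}, q x = 1 → ∀ y, x * y = y * x := fun hx y => hq.comm hx y
    -- the 2-part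
    let T : Subgroup U :=
      { carrier := {z | q z = 1 ∧ z ^ 2 = 1}
        mul_mem' := by
          rintro x y ⟨hx, hx2⟩ ⟨hy, hy2⟩
          refine ⟨by rw [map_mul, hx, hy, one_mul], ?_⟩
          rw [(show Commute x y from hcomm hx y).mul_pow 2, hx2, hy2, one_mul]
        one_mem' := ⟨map_one q, one_pow 2⟩
        inv_mem' := by
          rintro x ⟨hx, hx2⟩
          exact ⟨by rw [map_inv, hx, inv_one], by rw [inv_pow, hx2, inv_one]⟩ }
    have hT4 : Nat.card T = 4 := (card_pow e 2).trans M12_two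
    -- the structure of a kernel of order `2 k`
    have key : ∀ A : Subgroup U, (∀ z ∈ A, q z = 1) → Nat.card A = 2 * k →
        ∃ a : U, q a = 1 ∧ a * a = 1 ∧ a ≠ 1 ∧ ∀ z, z ∈ A ↔ q z = 1 ∧ (z ^ k = 1 ∨ z ^ k = a) := by
      intro A hA hAc
      have : Fact (Nat.Prime 2) := ⟨Nat.prime_two⟩
      obtain ⟨a, ha⟩ := exists_prime_orderOf_dvd_card' (G := A) 2 (by rw [hAc]; exact dvd_mul_right _ _)
      have ha2 : (a : U) * a = 1 := by
        have h1 : a ^ 2 = 1 := by rw [← ha, pow_orderOf_eq_one]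
        have h2 := congrArg Subtype.val h1
        rw [pow_two] at h2
        exact h2
      have ha1 : (a : U) ≠ 1 := by
        intro h
        have : a = 1 := Subtype.ext h
        rw [this, orderOf_one] at ha
        omega
      have hTA : Nat.card (T ⊓ A : Subgroup U) ∣ 2 := by
        have h1 : Nat.card (T ⊓ A : Subgroup U) ∣ 4 := hT4 ▸ Subgroup.card_dvd_of_le inf_le_left
        have h2 : Nat.card (T ⊓ A : Subgroup U) ∣ 2 * k := hAc ▸ Subgroup.card_dvd_of_le inf_le_right
        have h3 := Nat.dvd_gcd h1 h2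
        have h4 : Nat.gcd 4 (2 * k) = 2 := by
          rcases hk' with rfl | rfl <;> rfl
        rwa [h4] at h3
      have hmem : ∀ z ∈ A, z ^ k = 1 ∨ z ^ k = a := by
        intro z hz
        have hz2 : z ^ k ∈ T ⊓ A := by
          refine ⟨⟨hA _ (A.pow_mem hz k), ?_⟩, A.pow_mem hz k⟩
          have := pow_card_eq_one' (x := (⟨z, hz⟩ : A))
          rw [hAc] at this
          rw [← pow_mul, mul_comm]
          exact congrArg Subtype.val this
        have haT : (a : U) ∈ T ⊓ A := ⟨⟨hA _ a.2, by rw [pow_two]; exact ha2⟩, a.2⟩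
        by_contra hcon
        push Not at hcon
        have h3 : ({1, (a : U), z ^ k} : Set U) ⊆ (T ⊓ A : Subgroup U) := by
          rintro x (rfl | rfl | rfl)
          · exact one_mem _
          · exact haT
          · exact hz2
        have h4 := Set.ncard_le_ncard h3 (Set.toFinite _)
        have h5 : ({1, (a : U), z ^ k} : Set U).ncard = 3 := by
          rw [Set.ncard_eq_three]
          exact ⟨1, a, z ^ k, ha1.symm, Ne.symm hcon.1, Ne.symm hcon.2, rfl⟩
        have h6 : ((T ⊓ A : Subgroup U) : Set U).ncard = Nat.card (T ⊓ A : Subgroup U) := rfl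
        rw [h5, h6] at h4
        have h7 := Nat.le_of_dvd (by norm_num) hTA
        omega
      refine ⟨a, hA _ a.2, ha2, ha1, fun z => ?_⟩
      refine mem_iff_of_card (P := fun z => q z = 1 ∧ (z ^ k = 1 ∨ z ^ k = a)) (fun z hz => ⟨hA z hz, hmem z hz⟩) ?_ z
      rw [hAc]
      have h8 := card_pow_a e k ⟨a, hA _ a.2⟩
      rw [h8]
      have h9 : e ⟨a, hA _ a.2⟩ * e ⟨a, hA _ a.2⟩ = 1 := by
        rw [← map_mul, map_eq_one_iff e e.injective]; exact Subtype.ext ha2
      have h10 : e ⟨a, hA _ a.2⟩ ≠ 1 := by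
        rw [Ne, map_eq_one_iff e e.injective]
        intro h; exact ha1 (congrArg Subtype.val h)
      rcases hk' with rfl | rfl
      · rw [M12_b _ h9 h10]
      · rw [M12_a _ h9 h10]
    obtain ⟨a, haq, ha2, ha1, hfA⟩ := key f.ker fk hk
    obtain ⟨b, hbq, hb2, hb1, hgB⟩ := key g.ker gk (by rw [← cfg]; exact hk)
    -- the diagonal automorphism
    obtain ⟨ω, hω⟩ := Cfsg.Agent.SporadicStructure.UnitTwo.exists_omega hF
    have h0 := Cfsg.Agent.KFacts.OddLift.USixL.omega_ne_zero hω
    have h3 : ω ^ 3 = 1 := by linear_combination (ω - 1) * hω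
    obtain ⟨α, hα⟩ := exists_auto hF hq h12 (USixTwo.dlt ω h0 h3)
    have hqα : ∀ z, q z = 1 → q (α z) = 1 := by
      intro z hz
      have h4 := hα z
      rw [hz] at h4
      exact (USixTwo.dlt ω h0 h3).injective (h4.trans (map_one _).symm)
    have hqα' : ∀ z, q (α z) = 1 → q z = 1 := by
      intro z hz
      have h4 := hα z
      rw [hz, map_one] at h4
      exact h4.symm
    have nofix : ∀ z, q z = 1 → z * z = 1 → z ≠ 1 → α z ≠ z := by
      intro z hz hz2 hz1
      refine no_fix hF hq h12 hω h0 h3 hα hz hz2 hz1 ?_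
      rw [card_pow_a e 3 ⟨z, hz⟩]
      apply M12_a
      · rw [← map_mul, map_eq_one_iff e e.injective]; exact Subtype.ext hz2
      · rw [Ne, map_eq_one_iff e e.injective]
        intro h; exact hz1 (congrArg Subtype.val h)
    -- an automorphism carrying `a` to `b`
    have hα1 : q (α a) = 1 := hqα a haq
    have hα2 : α a * α a = 1 := by rw [← map_mul, ha2, map_one]
    have hα3 : α a ≠ 1 := by rw [Ne, map_eq_one_iff α α.injective]; exact ha1
    have hαα1 : q (α (α a)) = 1 := hqα _ hα1
    have hαα2 : α (α a) * α (α a) = 1 := by rw [← map_mul, hα2, map_one]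
    have hαα3 : α (α a) ≠ 1 := by rw [Ne, map_eq_one_iff α α.injective]; exact hα3
    have n1 : α a ≠ a := nofix a haq ha2 ha1
    have n2 : α (α a) ≠ α a := nofix _ hα1 hα2 hα3
    have n3 : α (α a) ≠ a := by
      intro h
      have h4 : q (a * α a) = 1 := by rw [map_mul, haq, hα1, one_mul]
      have h5 : a * α a * (a * α a) = 1 := by
        calc a * α a * (a * α a) = a * (α a * a) * α a := by simp only [mul_assoc]
          _ = a * (a * α a) * α a := by rw [hcomm haq (α a)]
          _ = (a * a) * (α a * α a) := by simp only [mul_assoc]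
          _ = 1 := by rw [ha2, hα2, one_mul]
      have h6 : a * α a ≠ 1 := by
        intro h7
        apply n1
        exact mul_left_cancel (h7.trans ha2.symm)
      apply nofix _ h4 h5 h6
      rw [map_mul, h, hcomm haq]
    have hb' : b = a ∨ b = α a ∨ b = α (α a) := by
      by_contra hcon
      push Not at hcon
      obtain ⟨c1, c2, c3⟩ := hcon
      have h3 : ({1, a, α a, α (α a), b} : Set U) ⊆ (T : Set U) := by
        rintro x (rfl | rfl | rfl | rfl | rfl)
        · exact one_mem T
        · exact ⟨haq, by rw [pow_two]; exact ha2⟩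
        · exact ⟨hα1, by rw [pow_two]; exact hα2⟩
        · exact ⟨hαα1, by rw [pow_two]; exact hαα2⟩
        · exact ⟨hbq, by rw [pow_two]; exact hb2⟩
      have h4 := Set.ncard_le_ncard h3 (Set.toFinite _)
      have h5 : (T : Set U).ncard = 4 := hT4
      have h6 : ({1, a, α a, α (α a), b} : Set U).ncard = 5 := by
        classical
        have : ({1, a, α a, α (α a), b} : Set U) = (({1, a, α a, α (α a), b} : Finset U) : Set U) := by simp
        rw [this, Set.ncard_coe_finset]
        rw [Finset.card_insert_of_notMem, Finset.card_insert_of_notMem, Finset.card_insert_of_notMem,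
          Finset.card_insert_of_notMem, Finset.card_singleton]
        · simp [Ne.symm c3]
        · simp [Ne.symm n2, Ne.symm c2]
        · simp [Ne.symm n1, Ne.symm n3, Ne.symm c1]
        · simp [Ne.symm ha1, Ne.symm hα3, Ne.symm hαα3, Ne.symm hb1]
      omega
    -- conclusion
    have fin : ∀ β : U ≃* U, (∀ z, q z = 1 ↔ q (β z) = 1) → β a = b → Nonempty (G ≃* H) := by
      intro β hβ hab
      refine iso_of_ker (f := f) (g := g.comp β.toMonoidHom) hf.surj (hg.surj.comp β.surjective) ?_
      ext z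
      have h4 : z ∈ (g.comp β.toMonoidHom).ker ↔ β z ∈ g.ker := Iff.rfl
      rw [h4, hfA, hgB, ← hβ, ← map_pow, ← hab, map_eq_one_iff β β.injective, β.injective.eq_iff]
    rcases hb' with h | h | h
    · exact fin (MulEquiv.refl U) (fun z => Iff.rfl) h.symm
    · exact fin α (fun z => ⟨hqα z, hqα' z⟩) h.symm
    · exact fin (α.trans α) (fun z => ⟨fun h => hqα _ (hqα z h), fun h => hqα' z (hqα' _ h)⟩) h.symm

end

/-- **All perfect central extensions of `U₆(2)` with the same order are isomorphic** -/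
theorem u6_cover {G : Type u} {H : Type v} [Group G] [Finite G] [Group H] [Finite H] (hG : Cfsg.IsQuasisimple G)
    (hH : Cfsg.IsQuasisimple H) {F : Type} [Field F] [Fintype F] (hF : Fintype.card F = 4)
    (eG : G ⧸ Subgroup.center G ≃* PSU 6 F 2) (eH : H ⧸ Subgroup.center H ≃* PSU 6 F 2)
    (c : Nat.card (Subgroup.center G) = Nat.card (Subgroup.center H)) : Nonempty (G ≃* H) := by
  have hF' : Fintype.card F = 2 ^ 2 := by rw [hF]; norm_num
  have hp : PCE (eG.toMonoidHom.comp (QuotientGroup.mk' (Subgroup.center G))) := by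
    refine PCE.congr ⟨QuotientGroup.mk'_surjective _, by rw [QuotientGroup.ker_mk'], hG.1.1⟩ eG
  have hr : PCE (eH.toMonoidHom.comp (QuotientGroup.mk' (Subgroup.center H))) := by
    refine PCE.congr ⟨QuotientGroup.mk'_surjective _, by rw [QuotientGroup.ker_mk'], hH.1.1⟩ eH
  refine iso_of_card hF' hp hr ?_
  rw [ker_congr, ker_congr, QuotientGroup.ker_mk', QuotientGroup.ker_mk']
  exact c

/-- **DM27 of S4907** -/
theorem u6_double {G : Type u} {H : Type v} [Group G] [Finite G] [Group H] [Finite H] (hG : Cfsg.IsQuasisimple G)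
    (hH : Cfsg.IsQuasisimple H) {F : Type} [Field F] [Fintype F] (hF : Fintype.card F = 4)
    (eG : G ⧸ Subgroup.center G ≃* PSU 6 F 2) (eH : H ⧸ Subgroup.center H ≃* PSU 6 F 2)
    (c : Nat.card (Subgroup.center G) = Nat.card (Subgroup.center H))
    (_h : Nat.card (Subgroup.center G) = 2 ∨ Nat.card (Subgroup.center G) = 6) : Nonempty (G ≃* H) :=
  u6_cover hG hH hF eG eH c

end Cfsg.Agent.H277.DM
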